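import Cfsg.Agent.H892.EP.Basic
import Cfsg.Agent.Blocks.CentralizerSum
import Cfsg.Agent.Blocks.Osima

/-!
# The two-prime trick (helper360, for S4929 / S4928; proof by helper531, helper162, helper999)

* `exists_mem_principal` : `z` a `q`-element, `B` a `q`-block of `G` induced from a block of `C(z)` with a
  character which does not vanish at the `p`-element `x ∈ C(z)`; if every `p`-regular element `y` of `C(x)`
  of order divisible by `q` satisfies `x y ~ x z`, then `B` meets the principal `p`-block.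
-/

set_option autoImplicit false

open scoped ComplexConjugate
open Cfsg Cfsg.Agent.Characters.Core

namespace Cfsg.Agent.H360.EP

open Cfsg.Agent.Blocks.Local Cfsg.Agent.Blocks.Basic

universe u

variable {G : Type u} [Group G] [Finite G]

/-- `ξ(x) conj ξ(x)` summed over a set containing a character with `ξ(x) ≠ 0` is not zero. -/
theorem sum_norm_ne_zero {H : Type u} [Group H] [Finite H] {A : Set (IrrCharacter H)} {ψ : IrrCharacter H} (hψ : ψ ∈ A)
    {x : H} (hx : (ψ : H → ℂ) x ≠ 0) :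
    ∑ᶠ ξ ∈ A, (ξ : H → ℂ) x * conj ((ξ : H → ℂ) x) ≠ 0 := by
  classical
  have : Finite (IrrCharacter H) := finite_irr
  rw [finsum_mem_eq_finite_toFinset_sum _ (Set.toFinite _)]
  have h1 : ∀ ξ : IrrCharacter H, (ξ : H → ℂ) x * conj ((ξ : H → ℂ) x) =
      ((Complex.normSq ((ξ : H → ℂ) x) : ℝ) : ℂ) := fun ξ => Complex.mul_conj _
  rw [Finset.sum_congr rfl fun ξ _ => h1 ξ, ← Complex.ofReal_sum, Complex.ofReal_ne_zero]
  have h2 : Complex.normSq ((ψ : H → ℂ) x) ≤
      ∑ ξ ∈ (Set.toFinite A).toFinset, Complex.normSq ((ξ : H → ℂ) x) :=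
    Finset.single_le_sum (f := fun ξ : IrrCharacter H => Complex.normSq ((ξ : H → ℂ) x))
      (fun _ _ => Complex.normSq_nonneg _) ((Set.Finite.mem_toFinset _).2 hψ)
  have h3 : 0 < Complex.normSq ((ψ : H → ℂ) x) := Complex.normSq_pos.2 hx
  linarith

/-- **The two-prime trick.** -/
theorem exists_mem_principal {q p : ℕ} [hq : Fact q.Prime] [hp : Fact p.Prime] (hpq : p ≠ q) {Mq Mp : Ideal AlgInt}
    (hMq : IsPModular q Mq) (hMp : IsPModular p Mp) {z x : G} (hz : orderOf z = q) (hx : orderOf x = p)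
    {H : Subgroup G} (hH : H = Subgroup.centralizer ({z} : Set G)) (hxH : x ∈ H)
    {B : Set (IrrCharacter G)} (ψ : IrrCharacter H) (hB : IsInducedBlock Mq H (blockOf Mq (ψ : H → ℂ)) B)
    (hψ : (ψ : H → ℂ) ⟨x, hxH⟩ ≠ 0)
    (hsec : ∀ y : G, y * x = x * y → ¬ p ∣ orderOf y → q ∣ orderOf y → IsConj (z * x) (x * y)) :
    ∃ χ ∈ B, χ ∈ principalBlock Mp G := by
  classical
  have hFin : Finite (IrrCharacter G) := finite_irr
  by_contra hno
  push Not at hno
  have hzx : z * x = x * z := by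
    rw [hH] at hxH
    exact (Subgroup.mem_centralizer_singleton_iff.1 hxH).symm
  have hpq' : ¬ p ∣ q := fun h => hpq ((Nat.prime_dvd_prime_iff_eq hp.out hq.out).1 h)
  have hqp' : ¬ q ∣ p := fun h => hpq ((Nat.prime_dvd_prime_iff_eq hq.out hp.out).1 h).symm
  have hBB : IsPBlock Mq B := hB.2.1
  have hR : ∀ g, MemLocalRing Mq (blockCoeff B g) := Cfsg.Agent.Blocks.Osima.memLocalRing_blockCoeff hMq hBB
  -- the sum over the block is not zero
  set T : ℂ := ∑ᶠ χ ∈ B, (χ : G → ℂ) (z * x) * conj ((χ : G → ℂ) (z * x)) with hT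
  have hT0 : T ≠ 0 := by
    have h1 := Cfsg.Agent.Blocks.CentralizerSum.sum_section hMq z ⟨1, by rw [hz, pow_one]⟩ hH hBB
      (A := {ξ : IrrCharacter H | IsInducedBlock Mq H (blockOf Mq (ξ : H → ℂ)) B}) (fun ξ => Iff.rfl)
      (⟨x, hxH⟩ : H) ⟨x, hxH⟩ (by rw [Subgroup.orderOf_mk, hx]; exact hqp') (by rw [Subgroup.orderOf_mk, hx]; exact hqp')
    have h2 : T = _ := h1
    rw [h2]
    exact sum_norm_ne_zero (ψ := ψ) hB hψ
  -- elements of the section
  set S : Set G := {g : G | ∃ w, IsPPart p g w ∧ IsConj x w} with hS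
  have hord : q ∣ orderOf (z * x) := by
    have hc : Commute z x := hzx
    rw [hc.orderOf_mul_eq_mul_orderOf_of_coprime (by
      rw [hz, hx]; exact (Nat.coprime_primes hq.out hp.out).2 hpq.symm), hz]
    exact dvd_mul_right _ _
  have hval : ∀ g ∈ S, (∑ᶠ χ ∈ B, (χ : G → ℂ) g * conj ((χ : G → ℂ) (z * x))) = if q ∣ orderOf g then T else 0 := by
    rintro g ⟨w, ⟨y, rfl, hwy, -, hy⟩, hxw⟩
    by_cases hg : q ∣ orderOf (w * y)
    · rw [if_pos hg, hT]
      obtain ⟨c, hc⟩ := isConj_iff.1 hxw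
      have hyq : q ∣ orderOf y := by
        by_contra hyq
        have ho : orderOf w = p := by rw [← hc, ← hx]; exact (MulAut.conj c).orderOf_eq x
        have h1 : orderOf (w * y) ∣ orderOf w * orderOf y := hwy.orderOf_mul_dvd_mul_orderOf
        rcases hq.out.dvd_mul.1 (hg.trans h1) with h2 | h2
        · rw [ho] at h2
          exact hqp' h2
        · exact hyq h2
      have hy1 : orderOf (c⁻¹ * y * c) = orderOf y := by
        have := (MulAut.conj c⁻¹).orderOf_eq y
        rwa [MulAut.conj_apply, inv_inv] at this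
      have hcomm : (c⁻¹ * y * c) * x = x * (c⁻¹ * y * c) := by
        have h2 : w * y = y * w := hwy
        rw [← hc] at h2
        calc c⁻¹ * y * c * x = c⁻¹ * (y * (c * x * c⁻¹)) * c := by group
          _ = c⁻¹ * ((c * x * c⁻¹) * y) * c := by rw [h2]
          _ = x * (c⁻¹ * y * c) := by group
      have h3 := hsec (c⁻¹ * y * c) hcomm (by rwa [hy1]) (by rwa [hy1])
      have h4 : IsConj (x * (c⁻¹ * y * c)) (w * y) := by
        refine isConj_iff.2 ⟨c, ?_⟩
        rw [← hc]; group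
      have h5 : IsConj (z * x) (w * y) := h3.trans h4
      obtain ⟨d, hd⟩ := isConj_iff.1 h5
      refine finsum_mem_congr rfl fun χ _ => ?_
      rw [← hd, isIrr_isClassFunction χ.2]
    · rw [if_neg hg]
      exact Cfsg.Agent.Blocks.Orthogonality.weak_block_orthogonality hMq B hR hg hord
  -- double sum
  have hzero : ∀ χ ∈ B, ∑ᶠ g ∈ S, (χ : G → ℂ) g = 0 := by
    intro χ hχ
    by_contra h
    exact hno χ hχ (Cfsg.Agent.H892.EP.mem_of_section_sum hMp χ x h)
  set SF : Finset G := (Set.toFinite S).toFinset with hSF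
  set BF : Finset (IrrCharacter G) := (Set.toFinite B).toFinset with hBF
  have hz' : ∀ χ ∈ BF, ∑ g ∈ SF, (χ : G → ℂ) g = 0 := by
    intro χ hχ
    have h1 := hzero χ ((Set.Finite.mem_toFinset _).1 hχ)
    rwa [finsum_mem_eq_finite_toFinset_sum _ (Set.toFinite _)] at h1
  have h1 : ∑ χ ∈ BF, (∑ g ∈ SF, (χ : G → ℂ) g) * conj ((χ : G → ℂ) (z * x)) = 0 :=
    Finset.sum_eq_zero fun χ hχ => by rw [hz' χ hχ, zero_mul]
  have h2 : ∑ χ ∈ BF, (∑ g ∈ SF, (χ : G → ℂ) g) * conj ((χ : G → ℂ) (z * x)) =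
      ∑ g ∈ SF, if q ∣ orderOf g then T else 0 := by
    rw [Finset.sum_congr rfl fun χ _ => Finset.sum_mul _ _ _, Finset.sum_comm]
    refine Finset.sum_congr rfl fun g hg => ?_
    rw [← hval g ((Set.Finite.mem_toFinset _).1 hg), finsum_mem_eq_finite_toFinset_sum _ (Set.toFinite _)]
  rw [h2, ← Finset.sum_filter, Finset.sum_const, nsmul_eq_mul] at h1
  rcases mul_eq_zero.1 h1 with h3 | h3
  · rw [Nat.cast_eq_zero, Finset.card_eq_zero] at h3
    have h4 : z * x ∈ SF.filter fun g => q ∣ orderOf g := by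
      rw [Finset.mem_filter]
      refine ⟨(Set.Finite.mem_toFinset _).2 ⟨x, ⟨z, hzx.symm, hzx.symm, ⟨1, by rw [hx, pow_one]⟩, ?_⟩, IsConj.refl x⟩, hord⟩
      rw [hz]
      exact hpq'
    rw [h3] at h4
    exact absurd h4 (Finset.notMem_empty _)
  · exact hT0 h3

end Cfsg.Agent.H360.EP
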